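import Cfsg.Agent.H854.KS.Big
import Cfsg.Agent.H854.JM.List
import Cfsg.Agent.S5569

/-!
# S4577: the row `J4` (helper854)
-/

set_option autoImplicit false

open Cfsg Cfsg.Agent.H613.KS Subgroup

namespace Cfsg.Agent.H854.KS

open Cfsg.Agent.H854.JM

theorem noCfg_J4 {G : Type*} [Group G] [Finite G] [IsSimpleGroup G] (hG : ¬ IsMulCommutative G)
    (hJ : IsOfJankoFourType G) : NoCfg G := by
  obtain ⟨z, hz⟩ := hJ
  refine noCfg_of fun t ht => ?_
  by_cases hc : IsConj z t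
  · obtain ⟨g, rfl⟩ := isConj_iff.1 hc
    refine big_conj ?_
    obtain ⟨P, hP⟩ := hz
    refine ⟨twoCoreOfCentralizer z, ?_, ?_, ?_, ?_⟩
    · exact IsPGroup.of_card hP.2.2.1
    · rintro _ ⟨a, -, rfl⟩
      exact a.2
    · rintro c hc _ ⟨a, ha, rfl⟩
      refine ⟨⟨c, hc⟩ * a * ⟨c, hc⟩⁻¹, ?_, rfl⟩
      exact (inferInstance : (pCore 2 ↥(centralizer ({z} : Set G))).Normal).conj_mem a ha _
    · rw [hP.2.2.1]; norm_num
  · obtain ⟨V, K, h1, -, h3, h4, h5, -⟩ := S5569.result hG z hz t ht hc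
    refine ⟨V, IsPGroup.of_card h5, h1, fun c hc n hn => (mem_normalizer_iff.1 (h3 hc) n).1 hn, ?_⟩
    rw [h5]; norm_num

/-- **row `J4` of S4577** -/
theorem E_J4 {S : Type*} [Group S] [Finite S] (h : Spor.IsoJ4 S) : NoCfg S := by
  obtain ⟨e⟩ := id h
  have hs : IsSimpleGroup S := by
    have := simple_J
    exact e.isSimpleGroup
  refine noCfg_J4 ?_ (H337.isOfJankoFourType_of_isoJ4 h)
  intro hm
  apply noncomm_J
  exact ⟨⟨fun a b => by
    have := hm.is_comm.comm (e.symm a) (e.symm b)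
    rw [← map_mul, ← map_mul] at this
    exact e.symm.injective this⟩⟩

end Cfsg.Agent.H854.KS
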